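import Cfsg.Agent.Lib.H5Real
import Cfsg.Agent.Lib.SE.Basic

/-!
# Step B2: affine groups whose point stabilizers normalize Singer cycles
-/

set_option autoImplicit false

namespace CfsgLib.HI

open Subgroup MulAction Cfsg

theorem comm_of_pow {R : Type*} [Group R] {g k y : R} {i j : ℕ} (h1 : g * y * g⁻¹ = y ^ i)
    (h2 : k * y * k⁻¹ = y ^ j) : (k * g)⁻¹ * (g * k) * y = y * ((k * g)⁻¹ * (g * k)) := by
  have e : g * k * y * (g * k)⁻¹ = k * g * y * (k * g)⁻¹ := by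
    rw [show g * k * y * (g * k)⁻¹ = g * (k * y * k⁻¹) * g⁻¹ by group,
      show k * g * y * (k * g)⁻¹ = k * (g * y * g⁻¹) * k⁻¹ by group, h1, h2, ← conj_pow, ← conj_pow,
      h1, h2, ← pow_mul, ← pow_mul, mul_comm]
  rw [mul_assoc, mul_inv_eq_iff_eq_mul.1 e]
  group

theorem fix_of_sing {R W : Type*} [Group R] [MulAction R W] {k y : R} (hc : k * y = y * k)
    {a : W} (h : k • a = a) (i : ℕ) : k • y ^ i • a = y ^ i • a := by
  rw [← mul_smul, (Commute.pow_right hc i).eq, mul_smul, h]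

section
variable {R W : Type*} [Group R] [CommGroup W] [MulDistribMulAction R W]

theorem exists_trace (el : ∀ w : W, w * w = 1) {x d : R} (xx : x * x = 1)
    (hd : x * d * x⁻¹ = d⁻¹) {c : W} (hc : x • c = c) (m : ℕ) : ∃ w : W,
    d • (c * w * x • w) = c * w * x • w * (d ^ (m + 1) • c * (d ^ m)⁻¹ • c) := by
  induction m with
  | zero => exact ⟨1, by simp [mul_comm, ← mul_assoc, el c]⟩
  | succ m ih =>
    obtain ⟨w, hw⟩ := ih
    have e : x • d ^ (m + 1) • c = (d ^ (m + 1))⁻¹ • c := by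
      rw [← mul_smul, ← inv_pow, ← hd, conj_pow, mul_smul _ x⁻¹, inv_smul_eq_iff.2 hc.symm]
    have e2 : d • (d ^ (m + 1))⁻¹ • c = (d ^ m)⁻¹ • c := by
      rw [← mul_smul, pow_succ, mul_inv_rev, ← mul_assoc, mul_inv_cancel, one_mul]
    refine ⟨w * d ^ (m + 1) • c, ?_⟩
    rw [smul_mul' x, e, show c * (w * d ^ (m + 1) • c) * (x • w * (d ^ (m + 1))⁻¹ • c) =
      c * w * x • w * (d ^ (m + 1) • c * (d ^ (m + 1))⁻¹ • c) by ac_rfl, smul_mul' d, hw,
      smul_mul' d, e2, ← mul_smul, ← pow_succ']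
    calc _ = c * w * x • w * d ^ (m + 1) • c * d ^ (m + 1 + 1) • c *
          ((d ^ m)⁻¹ • c * (d ^ m)⁻¹ • c) := by ac_rfl
      _ = c * w * x • w * d ^ (m + 1) • c * d ^ (m + 1 + 1) • c *
          ((d ^ (m + 1))⁻¹ • c * (d ^ (m + 1))⁻¹ • c) := by rw [el, el]
      _ = _ := by ac_rfl

variable {V : Subgroup W} (el : ∀ w : W, w * w = 1) (h2 : V.index = 2)
  (inv : ∀ (g : R) (w : W), g • w ∈ V ↔ w ∈ V)
include el h2 inv

theorem exists_fix_out (d : R) (m : ℕ) {u : W} (hu : u ∉ V) :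
    ∃ e ∉ V, d • e = e * (d ^ (2 * m + 1) • u * u) := by
  induction m with
  | zero => exact ⟨u, hu, by simp [mul_comm, ← mul_assoc, el u]⟩
  | succ m ih =>
    obtain ⟨e, he, h⟩ := ih
    refine ⟨e * (d ^ (2 * m + 1) • u * d ^ (2 * m + 1 + 1) • u), ?_, ?_⟩
    · rwa [V.mul_mem_cancel_right ((mul_mem_iff_of_index_two h2).2 (by rw [inv, inv]))]
    · rw [smul_mul', h, smul_mul', ← mul_smul, ← mul_smul, ← pow_succ', ← pow_succ']
      change _ = _ * (d ^ (2 * m + 1 + 1 + 1) • u * u)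
      ac_rfl

theorem aff_lemma [Finite R] [Finite W] (faith : ∀ g : R, (∀ w : W, g • w = w) → g = 1)
    (h0 : V ≠ ⊥) (cyc : ∀ w ∉ V, ∃ y : R, y • w = w ∧
      (∀ a ∈ V, ∀ b ∈ V, a ≠ 1 → b ≠ 1 → ∃ i : ℕ, y ^ i • a = b) ∧
      ∀ g : R, g • w = w → ∃ i : ℕ, ∀ a ∈ V, (g * y * g⁻¹) • a = y ^ i • a)
    {x : R} (xx : x * x = 1) (hx : ∀ w ∉ V, x • w ≠ w) :
    (∀ a ∈ V, x • a = a) ∨ ∀ c : W, x • c = c → ∃ w : W, c = w * x • w := by
  have : Fact (Nat.Prime 2) := ⟨Nat.prime_two⟩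
  have out : ∀ {a b : W}, a ∉ V → b ∉ V → a * b ∈ V := fun ha hb =>
    (mul_mem_iff_of_index_two h2).2 (iff_of_false ha hb)
  have ne : ∀ {a b : W}, a ≠ b → a * b ≠ 1 := fun {a b} h e =>
    h (mul_right_cancel (e.trans (el b).symm))
  have ext : ∀ {g k : R} {w : W}, w ∉ V → g • w = k • w → (∀ a ∈ V, g • a = k • a) → g = k :=
    fun {g k w} hw e1 e2 => inv_mul_eq_one.1 (faith _ fun a => by
      rw [mul_smul, inv_smul_eq_iff]
      by_cases ha : a ∈ V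
      · exact (e2 a ha).symm
      · rw [← mul_one a, ← el w, ← mul_assoc, smul_mul', smul_mul' g, e1, e2 _ (out ha hw)])
  have cyc' : ∀ w ∉ V, ∃ y : R, y • w = w ∧
      (∀ a ∈ V, ∀ b ∈ V, a ≠ 1 → b ≠ 1 → ∃ i : ℕ, y ^ i • a = b) ∧
      (∀ g : R, g • w = w → ∃ i : ℕ, g * y * g⁻¹ = y ^ i) ∧
      ∀ k : R, k • w = w → k * y = y * k → ∀ a ∈ V, a ≠ 1 → k • a = a → k = 1 := fun w hw => by
    obtain ⟨y, y1, y2, y3⟩ := cyc w hw
    refine ⟨y, y1, y2, fun g hg => (y3 g hg).imp fun i e => ext hw ?_ e,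
      fun k k1 k2 a ha a1 k3 => ext hw (by rwa [one_smul]) fun b hb => ?_⟩
    · rw [mul_smul, mul_smul, inv_smul_eq_iff.2 hg.symm, y1, hg]
      exact (pow_mem (show y ∈ stabilizer R w from y1) i).symm
    · by_cases b1 : b = 1
      · rw [b1, smul_one, smul_one]
      obtain ⟨i, rfl⟩ := y2 a ha b hb a1 b1
      rw [fix_of_sing k2 k3, one_smul]
  obtain ⟨u, hu⟩ : ∃ u, u ∉ V := not_forall.1 fun e => by
    rw [(eq_top_iff' V).2 e, index_top] at h2
    exact absurd h2 (by decide)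
  by_cases hp : x ∈ pCore 2 R
  · let B : SubMulAction (pCore 2 R) W := ⟨V, fun g _ h => (inv (g : R) _).2 h⟩
    obtain ⟨a, ha, h1⟩ := (pCore_isPGroup 2 (G := R)).exists_fixed_point_of_prime_dvd_card_of_fixed_point
      B (a := ⟨1, V.one_mem⟩) (by
        obtain ⟨⟨b, hb⟩, h1⟩ := ne_bot_iff_exists_ne_one.1 h0
        exact (orderOf_eq_prime (by rw [pow_two]; exact Subtype.ext (el b)) h1).symm.dvd.trans
          (orderOf_dvd_natCard (⟨b, hb⟩ : V))) fun g => Subtype.ext (smul_one (g : R))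
    obtain ⟨y, -, y2, -⟩ := cyc u hu
    refine Or.inl fun b hb => ?_
    by_cases b1 : b = 1
    · rw [b1, smul_one]
    obtain ⟨i, rfl⟩ := y2 a a.2 b hb (fun e => h1 (Subtype.ext e.symm)) b1
    have := congrArg Subtype.val (ha ⟨_, Normal.conj_mem' inferInstance x hp (y ^ i)⟩)
    change ((y ^ i)⁻¹ * x * y ^ i) • (a : W) = a at this
    rwa [mul_smul, mul_smul, inv_smul_eq_iff] at this
  obtain ⟨d, d1, d2, hd⟩ := H5.exists_inverted_of_notMem_pCore (by rwa [pow_two]) hp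
  obtain ⟨m, hm⟩ := d1.odd_of_ne_two d2
  have d3 : d ^ (2 * m + 1) = 1 := hm ▸ pow_orderOf_eq_one d
  obtain ⟨w, hw, h1⟩ := exists_fix_out el h2 inv d m hu
  rw [d3, one_smul, el, mul_one] at h1
  have h3 : d • x • w = x • w := by
    rw [← mul_smul, ← inv_inv d, ← hd, mul_inv_rev, mul_inv_rev, inv_inv, mul_assoc, mul_assoc,
      inv_mul_cancel, mul_one, mul_smul, inv_smul_eq_iff.2 h1.symm]
  have h4 := mt (inv x w).1 hw
  have h5 := hx w hw
  refine Or.inr fun c hc => ?_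
  obtain ⟨v, hv⟩ := exists_trace el xx hd hc m
  rw [show d ^ (m + 1) = (d ^ m)⁻¹ from eq_inv_of_mul_eq_one_left (by
    rw [← d3, ← pow_add]; congr 1; ring), el, mul_one] at hv
  have h6 : x • (c * v * x • v) = c * v * x • v := by
    rw [smul_mul', smul_mul', hc, ← mul_smul, xx, one_smul, mul_right_comm]
  have h7 : c * v * x • v ∈ V := by_contra fun e => hx _ e h6
  have h8 : c = c * v * x • v * (v * x • v) := by rw [mul_assoc c, mul_assoc c, el, mul_one]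
  generalize c * v * x • v = e at hv h6 h7 h8
  by_cases e1 : e = 1
  · exact ⟨v, by rw [h8, e1, one_mul]⟩
  by_cases e2 : e * w = x • w
  · refine ⟨v * w, ?_⟩
    rw [h8, smul_mul', ← e2, ← mul_one (e * _), ← el w]
    ac_rfl
  exfalso
  have h9 : e * w ∉ V := by rwa [V.mul_mem_cancel_left h7]
  have h10 : d • (e * w) = e * w := by rw [smul_mul', hv, h1]
  have h11 : e * w ≠ w := fun h => e1 (mul_eq_right.1 h)
  generalize e * w = z at e2 h9 h10 h11
  obtain ⟨y, y1, y2, y3, y4⟩ := cyc' z h9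
  obtain ⟨i, hi⟩ := y2 _ (out h9 hw) _ (out h9 h4) (ne h11) (ne e2)
  obtain ⟨j, hj⟩ := y3 d h10
  have g1 : y ^ i • z = z := pow_mem (show y ∈ stabilizer R z from y1) i
  have g2 : y ^ i • w = x • w := by rwa [smul_mul', g1, mul_left_cancel_iff] at hi
  have g3 : (y ^ i)⁻¹ * (d * y ^ i * d⁻¹) = 1 := y4 _
    (by rw [mul_smul, mul_smul, mul_smul, inv_smul_eq_iff.2 h10.symm, g1, h10, inv_smul_eq_iff, g1])
    (by rw [← conj_pow, hj]; group) _ (out h9 hw) (ne h11) (by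
      have : d • (z * w) = z * w := by rw [smul_mul', h10, h1]
      rw [mul_smul, mul_smul, mul_smul, inv_smul_eq_iff.2 this.symm, hi, smul_mul' d, h10, h3,
        inv_smul_eq_iff, hi])
  rw [inv_mul_eq_one, eq_mul_inv_iff_mul_eq] at g3
  generalize y ^ i = g at g2 g3
  obtain ⟨y', -, -, z3, z4⟩ := cyc' _ h4
  obtain ⟨k, hk⟩ := z3 d h3
  obtain ⟨l, hl⟩ := z3 (g * x) (by rw [mul_smul, ← mul_smul x, xx, one_smul, g2])
  have g4 := comm_of_pow hl hk
  rw [show (d * (g * x))⁻¹ * (g * x * d) = d * d from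
    calc _ = x⁻¹ * ((d * g)⁻¹ * g) * (x * d * x⁻¹) * x := by group
      _ = x⁻¹ * (x * d * x⁻¹) * (x * d * x⁻¹) * x := by
        rw [← g3, mul_inv_rev, inv_mul_cancel_right, hd]
      _ = _ := by group] at g4
  have g5 := z4 _ (by rw [mul_smul, h3, h3]) g4 _ (out hw h4) (ne h5.symm)
    (by rw [mul_smul, smul_mul', h1, h3, smul_mul', h1, h3])
  exact d2 (orderOf_eq_prime (by rwa [pow_two]) fun e => d1.ne_one (orderOf_eq_one_iff.2 e))

end

theorem aff_group {G : Type*} [Group G] [Finite G] {P V : Subgroup G} (el : ∀ x ∈ P, x * x = 1)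
    (h2 : V.relIndex P = 2) (hV : V ≤ P) (h0 : V ≠ ⊥)
    (hn : normalizer (P : Set G) ≤ normalizer (V : Set G))
    (cyc : ∀ w ∈ P, w ∉ V → ∃ y ∈ normalizer (P : Set G), y * w * y⁻¹ = w ∧
      (∀ a ∈ V, ∀ b ∈ V, a ≠ 1 → b ≠ 1 → ∃ i : ℕ, y ^ i * a * (y ^ i)⁻¹ = b) ∧
      ∀ g ∈ normalizer (P : Set G), g * w * g⁻¹ = w → ∃ i : ℕ, ∀ a ∈ V,
        g * y * g⁻¹ * a * (g * y * g⁻¹)⁻¹ = y ^ i * a * (y ^ i)⁻¹)
    {x : G} (hx : x ∈ normalizer (P : Set G)) (xx : x * x ∈ centralizer (P : Set G))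
    (fpf : ∀ w ∈ P, w ∉ V → x * w * x⁻¹ ≠ w) : x ∈ centralizer (V : Set G) ∨
      ∀ c ∈ P, x * c * x⁻¹ = c → ∃ w ∈ P, c = w * (x * w * x⁻¹) := by
  have inv : ∀ x ∈ P, x⁻¹ = x := fun x hx => inv_eq_of_mul_eq_one_right (el x hx)
  letI : CommGroup P := { (inferInstance : Group P) with
    mul_comm := fun a b => Subtype.ext (by
      change (a : G) * b = b * a
      rw [← inv _ (mul_mem a.2 b.2), mul_inv_rev, inv _ a.2, inv _ b.2]) }
  set f := P.normalizerMonoidHom.rangeRestrict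
  have sj : Function.Surjective f := MonoidHom.rangeRestrict_surjective _
  have e : ∀ (g : normalizer (P : Set G)) (w : P), ((f g • w : P) : G) = g * w * (g : G)⁻¹ :=
    fun _ _ => rfl
  refine (aff_lemma (R := P.normalizerMonoidHom.range) (V := V.subgroupOf P)
    (fun w => Subtype.ext (el _ w.2)) h2 (fun g w => ?_)
    (fun g h => Subtype.ext (MulEquiv.ext h)) (fun h => h0 ?_) (fun w hw => ?_) (x := f ⟨x, hx⟩) ?_
    fun w hw h => fpf w w.2 hw (congrArg Subtype.val h)).imp (fun h a ha => ?_) fun h c hc h1 => ?_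
  · obtain ⟨g, rfl⟩ := sj g
    exact (mem_normalizer_iff.1 (hn g.2) _).symm
  · exact eq_bot_iff.2 fun a ha => congrArg Subtype.val (h.le (show (⟨a, hV ha⟩ : P) ∈ _ from ha))
  · obtain ⟨y, hy, y1, y2, y3⟩ := cyc w w.2 hw
    refine ⟨f ⟨y, hy⟩, Subtype.ext y1, fun a ha b hb a1 b1 => (y2 a ha b hb
      (fun e => a1 (Subtype.ext e)) fun e => b1 (Subtype.ext e)).imp fun i h =>
        Subtype.ext (by rw [← map_pow, e]; exact h), fun g hg => ?_⟩
    obtain ⟨g, rfl⟩ := sj g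
    exact (y3 g g.2 (congrArg Subtype.val hg)).imp fun i h a ha => Subtype.ext (by
      rw [← map_pow, ← map_inv, ← map_mul, ← map_mul, e, e]; exact h a ha)
  · rw [← map_mul]
    exact Subtype.ext (P.normalizerMonoidHom_ker.ge xx)
  · exact (mul_inv_eq_iff_eq_mul.1 (congrArg Subtype.val (h ⟨a, hV ha⟩ ha))).symm
  · obtain ⟨w, hw⟩ := h ⟨c, hc⟩ (Subtype.ext h1)
    exact ⟨w, w.2, congrArg Subtype.val hw⟩

end CfsgLib.HI
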