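import Mathlib

/-!
# No generalized quadrangles of order `(q, q - 1)` or `(q², q - 1)`
-/

set_option autoImplicit false

namespace CfsgLib.HI

open Matrix

theorem gq_dvd {Ω ι : Type*} [Fintype Ω] [Fintype ι] [DecidableEq Ω] [Nonempty Ω]
    (N : Matrix Ω ι ℚ) {k r : ℕ} (hk : 0 < k)
    (h1 : ∀ x, ∑ l, N x l = k + 1) (h2 : ∀ l, ∑ x, N x l = r + 1) (h0 : ∀ x l, N x l * N x l = N x l)
    (h3 : N * Nᵀ * N = ((k : ℚ) + r) • N + of fun _ _ => 1) :
    k + r ∣ (k + 1) * (r + 1) * r * k := by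
  set J : Matrix Ω Ω ℚ := of fun _ _ => 1 with hJ
  set M := N * Nᵀ with hM
  set v : ℚ := ((Fintype.card Ω : ℕ) : ℚ) with hv
  have e1 : M * M = ((k : ℚ) + r) • M + ((k : ℚ) + 1) • J := by
    rw [hM, ← Matrix.mul_assoc, h3, Matrix.add_mul, Matrix.smul_mul]
    congr 1
    ext x y
    simp [Matrix.mul_apply, h1, hJ]
  have e2 : M * J = (((k : ℚ) + 1) * (r + 1)) • J := by
    rw [hM, Matrix.mul_assoc]
    ext x y
    simp [Matrix.mul_apply, h2, hJ, ← Finset.sum_mul, h1]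
  have e3 : J * M = (((k : ℚ) + 1) * (r + 1)) • J := by
    rw [hM, ← Matrix.mul_assoc]
    ext x y
    simp [Matrix.mul_apply, h2, hJ, ← Finset.mul_sum, h1, mul_comm ((k : ℚ) + 1)]
  have e4 : J * J = v • J := by
    ext x y
    simp [Matrix.mul_apply, hJ, hv]
  have e5 : v = (r + 1) * (k * r + 1) := by
    obtain ⟨x⟩ := ‹Nonempty Ω›
    have h4 : M * (M * J) = M * M * J := (Matrix.mul_assoc _ _ _).symm
    rw [e1, e2, Matrix.mul_smul, e2, Matrix.add_mul, Matrix.smul_mul, Matrix.smul_mul, e2, e4] at h4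
    have h5 := congrFun (congrFun h4 x) x
    simp only [hJ, Matrix.smul_apply, of_apply, smul_eq_mul, mul_one, Matrix.add_apply] at h5
    have h6 : (k : ℚ) + 1 ≠ 0 := by positivity
    apply mul_left_cancel₀ h6
    linear_combination -h5
  have hs : (k : ℚ) + r ≠ 0 := by positivity
  have hc : (k : ℚ) * r + 1 ≠ 0 := by positivity
  set E : Matrix Ω Ω ℚ := ((k : ℚ) + r)⁻¹ • (M - (((k : ℚ) + 1) / (k * r + 1)) • J) with hE
  have e6 : E * E = E := by
    simp only [hE, Matrix.smul_mul, Matrix.mul_smul, Matrix.sub_mul, Matrix.mul_sub, e1, e2, e3, e4,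
      e5]
    ext x y
    simp only [Matrix.smul_apply, Matrix.sub_apply, Matrix.add_apply, smul_eq_mul]
    field_simp
    ring
  have e7 : IsIdempotentElem (Matrix.toLin' E) := by
    rw [IsIdempotentElem, Module.End.mul_eq_comp, ← Matrix.toLin'_mul, e6]
  have e8 := (LinearMap.IsIdempotentElem.isProj_range _ e7).trace
  rw [Matrix.trace_toLin'_eq] at e8
  have e9 : M.trace = v * (k + 1) := by
    simp [hM, Matrix.trace, Matrix.mul_apply, h0, h1, hv, mul_add]
  have e10 : J.trace = v := by simp [hJ, Matrix.trace, hv]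
  have e11 : E.trace = ((k : ℚ) + r)⁻¹ * (v * (k + 1) - ((k : ℚ) + 1) / (k * r + 1) * v) := by
    rw [hE, Matrix.trace_smul, Matrix.trace_sub, Matrix.trace_smul, e9, e10]
    rfl
  refine ⟨Module.finrank ℚ (LinearMap.range (Matrix.toLin' E)), ?_⟩
  apply Nat.cast_injective (R := ℚ)
  push_cast
  rw [← e8, e11, e5]
  field_simp
  ring

theorem gq_arith {k r : ℕ} (hk : 3 ≤ k) (hr : r = k + 1 ∨ r = (k + 1) ^ 2)
    (h : k + r ∣ (k + 1) * (r + 1) * r * k) : False := by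
  rw [← Int.natCast_dvd_natCast] at h
  rcases hr with rfl | rfl
  · have h1 : ((k + (k + 1) : ℕ) : ℤ) ∣ 3 := by
      have := Dvd.dvd.mul_left h 16
      push_cast at this ⊢
      have e : (3 : ℤ) = (k + (k + 1)) * (8 * k ^ 3 + 28 * k ^ 2 + 26 * k + 3) -
        16 * ((k + 1) * (k + 1 + 1) * (k + 1) * k) := by ring
      rw [e]
      exact dvd_sub (dvd_mul_right _ _) this
    have := Int.le_of_dvd (by norm_num) h1
    omega
  · have h1 : ((k + (k + 1) ^ 2 : ℕ) : ℤ) ∣ 18 * k + 7 := by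
      push_cast at h ⊢
      have e : (18 * k + 7 : ℤ) = (k + (k + 1) ^ 2) * (k ^ 4 + 2 * k ^ 3 + 4 * k ^ 2 - k + 7) -
        (k + 1) * ((k + 1) ^ 2 + 1) * (k + 1) ^ 2 * k := by ring
      rw [e]
      exact dvd_sub (dvd_mul_right _ _) h
    have h2 := Int.le_of_dvd (by positivity) h1
    have h3 : k ≤ 15 := by push_cast at h2; nlinarith
    interval_cases k <;> norm_num at h1

/-- The geometric form. -/
theorem gq_false {Ω : Type*} [Finite Ω] [Nonempty Ω] (L : Set (Set Ω)) {q r : ℕ} (hq : 4 ≤ q)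
    (hr : r = q ∨ r = q ^ 2) (h1 : ∀ x, {l | l ∈ L ∧ x ∈ l}.ncard = q)
    (h2 : ∀ l ∈ L, l.ncard = r + 1)
    (h3 : ∀ l ∈ L, ∀ m ∈ L, ∀ x ∈ l, ∀ y ∈ l, x ∈ m → y ∈ m → x ≠ y → l = m)
    (h4 : ∀ l ∈ L, ∀ x ∉ l, ∃! p : Set Ω × Ω, p.1 ∈ L ∧ x ∈ p.1 ∧ p.2 ∈ p.1 ∧ p.2 ∈ l) :
    False := by
  classical
  have := Fintype.ofFinite Ω
  obtain ⟨k, rfl⟩ := Nat.exists_eq_add_of_lt (show 0 < q by omega)
  rw [zero_add] at *
  have c1 : ∀ x, (Finset.univ.filter fun l : L => x ∈ (l : Set Ω)).card = k + 1 := fun x => by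
    rw [← h1 x, ← Set.ncard_coe_finset, ← Set.ncard_image_of_injective _ Subtype.val_injective]
    congr 1
    ext l
    simp [and_comm]
  have c2 : ∀ l : L, (Finset.univ.filter fun x => x ∈ (l : Set Ω)).card = r + 1 := fun l => by
    rw [← h2 l l.2, ← Set.ncard_coe_finset]
    congr 1
    ext l
    simp
  refine gq_arith (k := k) (by omega) hr (gq_dvd
    (of fun (x : Ω) (l : L) => if x ∈ (l : Set Ω) then (1 : ℚ) else 0) (by omega) (fun x => ?_)
    (fun l => ?_) (fun x l => ?_) ?_)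
  · simp [c1]
  · simp [c2]
  · simp only [of_apply]; split_ifs <;> simp
  ext x l
  have e : ∀ (a b c : Prop) [Decidable a] [Decidable b] [Decidable c],
      (if a then (1 : ℚ) else 0) * (if b then 1 else 0) * (if c then 1 else 0) =
        if a ∧ b ∧ c then 1 else 0 := fun a b c _ _ _ => by
    by_cases a <;> by_cases b <;> by_cases c <;> simp [*]
  simp only [Matrix.mul_apply, of_apply, transpose_apply, Finset.sum_mul, e, Matrix.add_apply,
    Matrix.smul_apply, smul_eq_mul]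
  rw [Finset.sum_comm]
  by_cases hx : x ∈ (l : Set Ω)
  · have e2 : ∀ m : L, (∑ y, if x ∈ (m : Set Ω) ∧ y ∈ (m : Set Ω) ∧ y ∈ (l : Set Ω) then (1 : ℚ)
        else 0) = (if x ∈ (m : Set Ω) then 1 else 0) + if m = l then r else 0 := fun m => by
      by_cases hm : m = l
      · subst hm
        simp [hx, c2, add_comm]
      by_cases hx' : x ∈ (m : Set Ω)
      · rw [Finset.sum_eq_single x (fun y _ hy => if_neg fun e => hm (Subtype.ext
          (h3 m m.2 l l.2 x hx' y e.2.1 hx e.2.2 hy.symm))) (by simp)]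
        simp [hx, hx', hm]
      · simp [hx', hm]
    simp [e2, Finset.sum_add_distrib, c1, hx]
    ring
  · obtain ⟨⟨m, y⟩, ⟨a, b, c, d⟩, h5⟩ := h4 l l.2 x hx
    rw [Finset.sum_eq_single ⟨m, a⟩ (fun m' _ hm => Finset.sum_eq_zero fun y' _ => if_neg fun e =>
      hm (Subtype.ext (congrArg Prod.fst (h5 (m', y') ⟨m'.2, e⟩)))) (by simp),
      Finset.sum_eq_single y (fun y' _ hy => if_neg fun e =>
        hy (congrArg Prod.snd (h5 (m, y') ⟨a, e⟩))) (by simp)]
    simp [hx, b, c, d] at *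

end CfsgLib.HI
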